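import Mathlib
import Cfsg.Agent.Lib.Helper9.S4033.Defs

/-!
# S4033: the `r`-part of a commutative subgroup, conjugate centralizers (helpers for ACT / GR)
-/

set_option autoImplicit false

namespace Cfsg.Agent.Lib.Helper10.S4033

open Cfsg.Agent.Lib.Helper9.S4033

universe u

/-- In a finite commutative group, a Sylow `r`-subgroup contains every `r`-element. -/
theorem mem_sylow_of_comm {A : Type*} [Group A] [Finite A] [IsMulCommutative A] {r : ℕ}
    [Fact r.Prime] (P : Sylow r A) (x : A) (k : ℕ) (hx : orderOf x = r ^ k) :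
    x ∈ (P : Subgroup A) := by
  have h1 : x ^ (P : Subgroup A).index ∈ (P : Subgroup A) := Subgroup.pow_index_mem _ x
  have h2 : ((P : Subgroup A).index).Coprime (orderOf x) := by
    rw [hx]
    apply Nat.Coprime.pow_right
    rw [Nat.coprime_comm, Nat.Prime.coprime_iff_not_dvd Fact.out]
    exact P.not_dvd_index
  obtain ⟨m, hm⟩ := exists_pow_eq_self_of_coprime h2
  rw [← hm]
  exact pow_mem h1 m

/-- The `r`-part of a finite commutative subgroup. -/
theorem exists_rpart {G : Type u} [Group G] [Finite G] (A : Subgroup G) [IsMulCommutative A]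
    (r : ℕ) (hr : r.Prime) :
    ∃ Q : Subgroup G, Q ≤ A ∧ Nat.card Q = r ^ (Nat.card A).factorization r ∧ IsPGroup r Q ∧
      ∀ x ∈ A, ∀ k : ℕ, orderOf x = r ^ k → x ∈ Q := by
  haveI : Fact r.Prime := ⟨hr⟩
  obtain ⟨P⟩ : Nonempty (Sylow r A) := inferInstance
  refine ⟨(P : Subgroup A).map A.subtype, ?_, ?_, ?_, ?_⟩
  · rintro _ ⟨y, -, rfl⟩
    exact y.2
  · rw [Subgroup.card_map_of_injective A.subtype_injective]
    exact P.card_eq_multiplicity
  · exact P.isPGroup'.map _
  · intro x hx k hk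
    refine ⟨⟨x, hx⟩, mem_sylow_of_comm P ⟨x, hx⟩ k ?_, rfl⟩
    rw [← hk]
    exact Subgroup.orderOf_mk _ _

/-- Centralizer of a conjugate. -/
theorem mem_centralizer_conj_iff {G : Type*} [Group G] (g w x : G) :
    x ∈ Subgroup.centralizer ({g * w * g⁻¹} : Set G) ↔
      g⁻¹ * x * g ∈ Subgroup.centralizer ({w} : Set G) := by
  rw [Subgroup.mem_centralizer_singleton_iff, Subgroup.mem_centralizer_singleton_iff]
  constructor
  · intro h
    calc g⁻¹ * x * g * w = g⁻¹ * (x * (g * w * g⁻¹)) * g := by group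
      _ = g⁻¹ * (g * w * g⁻¹ * x) * g := by rw [h]
      _ = w * (g⁻¹ * x * g) := by group
  · intro h
    calc x * (g * w * g⁻¹) = g * (g⁻¹ * x * g * w) * g⁻¹ := by group
      _ = g * (w * (g⁻¹ * x * g)) * g⁻¹ := by rw [h]
      _ = g * w * g⁻¹ * x := by group

end Cfsg.Agent.Lib.Helper10.S4033
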