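import Mathlib
import Cfsg.Agent.Lib.Helper9.S4033.Defs
import Cfsg.Agent.Lib.Helper10.S4033.RPart

/-!
# S4033 package [ACT]
-/

set_option autoImplicit false

namespace Cfsg.Agent.Lib.Helper10.S4033

open Cfsg.Agent.Lib.Helper9.S4033

universe u

theorem pkgAct (hMem : PkgMem.{u}) : PkgAct.{u} := by
  intro G _ _ p a hp ha hX r hr hrp hNC u hu huc
  obtain ⟨x0, hx0c, k0, hx0⟩ := hNC
  have hcop : ∀ k : ℕ, (r ^ k).Coprime p := fun k =>
    Nat.Coprime.pow_left k ((Nat.coprime_primes hr hp).mpr hrp)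
  have hx0p : (orderOf x0).Coprime p := by rw [hx0]; exact hcop k0
  obtain ⟨A0, hA0c, hA0m, hA0card, -, -⟩ := hMem G p a hp ha hX x0 hx0p hx0c
  obtain ⟨A, hAc, hAm, hAcard, -, -⟩ := hMem G p a hp ha hX u hu huc
  obtain ⟨Q0, hQ0le, hQ0card, hQ0p, hQ0m⟩ := exists_rpart A0 r hr
  obtain ⟨Q, hQle, hQcard, hQp, hQm⟩ := exists_rpart A r hr
  by_contra hcon
  haveI : Fact r.Prime := ⟨hr⟩
  have hQord : ∀ y ∈ Q, ∃ k, orderOf y = r ^ k := by
    intro y hy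
    obtain ⟨k, hk⟩ := (IsPGroup.iff_orderOf.mp hQp) ⟨y, hy⟩
    exact ⟨k, by rw [← hk, Subgroup.orderOf_mk]⟩
  have hQcent : ∀ y ∈ Q, y ∈ Subgroup.center G := by
    intro y hy
    by_contra hyc
    have hyA := (hAm y).mp (hQle hy)
    exact hcon ⟨y, hyc, hQord y hy, Subgroup.mem_centralizer_singleton_iff.mp hyA.1⟩
  have hle : Q ≤ Q0 := by
    intro y hy
    obtain ⟨k, hk⟩ := hQord y hy
    refine hQ0m y ((hA0m y).mpr ⟨?_, ?_⟩) k hk
    · rw [Subgroup.mem_centralizer_singleton_iff]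
      exact (Subgroup.mem_center_iff.mp (hQcent y hy) x0).symm
    · rw [hk]; exact hcop k
  have heq : Q = Q0 :=
    Subgroup.eq_of_le_of_card_ge hle (by rw [hQ0card, hQcard, hA0card, hAcard])
  have hx0Q : x0 ∈ Q := by
    rw [heq]
    exact hQ0m x0 ((hA0m x0).mpr ⟨Subgroup.mem_centralizer_singleton_iff.mpr rfl, hx0p⟩) k0 hx0
  exact hx0c (hQcent x0 hx0Q)

end Cfsg.Agent.Lib.Helper10.S4033
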