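import Mathlib
import Cfsg.Agent.Lib.Helper9.S4033.Defs
import Cfsg.Agent.Lib.Helper10.S4033.RPart

/-!
# S4033 package [GR]
-/

set_option autoImplicit false

namespace Cfsg.Agent.Lib.Helper10.S4033

open Cfsg.Agent.Lib.Helper9.S4033

universe u

theorem pkgGr (hMem : PkgMem.{u}) (hAct : PkgAct.{u}) : PkgGr.{u} := by
  intro G _ _ p a hp ha hX u hu huc r hr hrp hlt
  haveI : Fact r.Prime := ⟨hr⟩
  have hcop : ∀ k : ℕ, (r ^ k).Coprime p := fun k =>
    Nat.Coprime.pow_left k ((Nat.coprime_primes hr hp).mpr hrp)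
  obtain ⟨A, hAc, hAm, hAcard, hAcent, -⟩ := hMem G p a hp ha hX u hu huc
  obtain ⟨Q, hQle, hQcard, hQp, hQm⟩ := exists_rpart A r hr
  obtain ⟨R, hQR⟩ := hQp.exists_le_sylow
  haveI hRnil : Group.IsNilpotent R := R.isPGroup'.isNilpotent
  have hne : Q.subgroupOf R < ⊤ := by
    rw [lt_top_iff_ne_top]
    intro htop
    rw [Subgroup.subgroupOf_eq_top] at htop
    have : Nat.card R ≤ Nat.card Q := Subgroup.card_le_of_le htop
    rw [R.card_eq_multiplicity, hQcard, hAcard] at this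
    exact absurd ((Nat.pow_le_pow_iff_right hr.one_lt).mp this) (not_le.mpr hlt)
  have hnc := normalizerCondition_of_isNilpotent (G := R) (Q.subgroupOf R) hne
  obtain ⟨h, hhN, hhQ⟩ := SetLike.exists_of_lt hnc
  have hhQ' : (h : G) ∉ Q := fun hq => hhQ (Subgroup.mem_subgroupOf.mpr hq)
  have hnorm : ∀ y ∈ Q, (h : G) * y * (h : G)⁻¹ ∈ Q := by
    intro y hy
    have := (Subgroup.mem_normalizer_iff.mp hhN ⟨y, hQR hy⟩).mp (Subgroup.mem_subgroupOf.mpr hy)
    exact Subgroup.mem_subgroupOf.mp this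
  obtain ⟨kh, hkh⟩ := (IsPGroup.iff_orderOf.mp R.isPGroup') h
  have hkh' : orderOf (h : G) = r ^ kh := by rw [← hkh, Subgroup.orderOf_coe]
  have hhu : (h : G) * u ≠ u * (h : G) := by
    intro hc
    exact hhQ' (hQm _ ((hAm _).mpr ⟨Subgroup.mem_centralizer_singleton_iff.mpr hc,
      by rw [hkh']; exact hcop kh⟩) kh hkh')
  have hhc : (h : G) ∉ Subgroup.center G := by
    intro hc
    exact hhu (Subgroup.mem_center_iff.mp hc u).symm
  obtain ⟨v, hvc, ⟨kv, hkv⟩, hvu⟩ :=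
    hAct G p a hp ha hX r hr hrp ⟨h, hhc, kh, hkh'⟩ u hu huc
  have hvA : v ∈ A :=
    (hAm v).mpr ⟨Subgroup.mem_centralizer_singleton_iff.mpr hvu, by rw [hkv]; exact hcop kv⟩
  have hvQ : v ∈ Q := hQm v hvA kv hkv
  have hcv : (h : G) * v * (h : G)⁻¹ ∈ A := hQle (hnorm v hvQ)
  have hcvc : (h : G) * v * (h : G)⁻¹ ∉ Subgroup.center G := by
    intro hc
    apply hvc
    have := (inferInstance : (Subgroup.center G).Normal).conj_mem _ hc (h : G)⁻¹
    simpa [mul_assoc] using this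
  have e1 := hAcent v hvA hvc
  have e2 := hAcent _ hcv hcvc
  refine ⟨h, ⟨kh, hkh'⟩, hhu, ?_⟩
  ext x
  constructor
  · intro hx
    have h1 := (mem_centralizer_conj_iff (h : G) u x).mp hx
    rw [← e1] at h1
    have h2 := (mem_centralizer_conj_iff (h : G) v x).mpr h1
    rw [e2] at h2
    exact h2
  · intro hx
    rw [← e2] at hx
    have h1 := (mem_centralizer_conj_iff (h : G) v x).mp hx
    rw [e1] at h1
    exact (mem_centralizer_conj_iff (h : G) u x).mpr h1

end Cfsg.Agent.Lib.Helper10.S4033
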