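import Mathlib
import Cfsg.Agent.Lib.Helper9.S4033.Defs
import Cfsg.Agent.Lib.Helper67.SylowLemmas

/-!
# S4033 package [H2]: unpacking "exactly two p-regular class sizes"
-/

set_option autoImplicit false

namespace Cfsg.Agent.Lib.Helper10.S4033

open Cfsg.Agent.Lib.Helper9.S4033

universe u

theorem pkgH2 : PkgH2.{u} := by
  intro G _ _ p h2
  rw [Set.ncard_eq_two] at h2
  obtain ⟨a, b, hab, hS⟩ := h2
  have h1 : (1 : ℕ) ∈ Set.range (fun x : {x : G // (orderOf x).Coprime p} =>
      (ConjClasses.mk (x : G)).carrier.ncard) := by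
    refine ⟨⟨1, by simp⟩, ?_⟩
    show (ConjClasses.mk (1 : G)).carrier.ncard = 1
    rw [Cfsg.Agent.Lib.Helper67.ncard_conjClasses_carrier, Subgroup.index_eq_one,
      Subgroup.centralizer_eq_top_iff_subset]
    simp
  have hmem : ∀ x : G, (orderOf x).Coprime p →
      (ConjClasses.mk x).carrier.ncard = a ∨ (ConjClasses.mk x).carrier.ncard = b := by
    intro x hx
    have : (ConjClasses.mk x).carrier.ncard ∈
        Set.range (fun x : {x : G // (orderOf x).Coprime p} =>
          (ConjClasses.mk (x : G)).carrier.ncard) := ⟨⟨x, hx⟩, rfl⟩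
    rw [hS] at this
    simpa using this
  have hnc : ∀ x : G, x ∉ Subgroup.center G → (ConjClasses.mk x).carrier.ncard ≠ 1 := by
    intro x hx h
    rw [Cfsg.Agent.Lib.Helper67.ncard_conjClasses_carrier, Subgroup.index_eq_one,
      Subgroup.centralizer_eq_top_iff_subset] at h
    exact hx (h rfl)
  rw [hS] at h1
  rcases h1 with h1 | h1
  · refine ⟨b, fun x hx => ⟨?_, fun hxc => ?_⟩⟩
    · rcases hmem x hx with h | h
      · left; rw [h, ← h1]
      · right; exact h
    · rw [← Cfsg.Agent.Lib.Helper67.ncard_conjClasses_carrier]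
      rcases hmem x hx with h | h
      · exact absurd (h.trans h1.symm) (hnc x hxc)
      · exact h
  · have h1' : (1 : ℕ) = b := h1
    refine ⟨a, fun x hx => ⟨?_, fun hxc => ?_⟩⟩
    · rcases hmem x hx with h | h
      · right; exact h
      · left; rw [h, ← h1']
    · rw [← Cfsg.Agent.Lib.Helper67.ncard_conjClasses_carrier]
      rcases hmem x hx with h | h
      · exact h
      · exact absurd (h.trans h1'.symm) (hnc x hxc)

end Cfsg.Agent.Lib.Helper10.S4033
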